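import Cfsg.Agent.Lib.SylFix.Count

/-!
# Two subsets whose joint stabilizer has index divisible by `p`
-/

set_option autoImplicit false

namespace Cfsg.Agent.SylFix

open scoped BigOperators Pointwise
open Classical

universe u v

section

variable (p : ℕ) [hp : Fact p.Prime]
variable {G : Type u} [Group G] [Finite G]

/-- A subgroup whose index is prime to `p` contains a Sylow subgroup. -/
lemma exists_sylow_le (T : Subgroup G) (h : ¬ p ∣ T.index) :
    ∃ R : Sylow p G, (R : Subgroup G) ≤ T := by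
  obtain ⟨R₀⟩ : Nonempty (Sylow p G) := inferInstance
  have hcard : ¬ p ∣ Nat.card (G ⧸ T) := by
    rwa [← Subgroup.index_eq_card]
  obtain ⟨q, hq⟩ := (R₀.isPGroup').nonempty_fixed_point_of_prime_not_dvd_card (G ⧸ T) hcard
  obtain ⟨g, rfl⟩ := QuotientGroup.mk_surjective q
  refine ⟨g⁻¹ • R₀, ?_⟩
  rw [coe_smul_eq_cj]
  intro x hx
  rw [mem_cj, inv_inv] at hx
  have h1 := hq ⟨g * x * g⁻¹, hx⟩
  have h2 : (⟨g * x * g⁻¹, hx⟩ : (R₀ : Subgroup G)) • ((g : G) : G ⧸ T) =
      ((g * x * g⁻¹ * g : G) : G ⧸ T) := rfl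
  rw [h2] at h1
  have h3 : g * x * g⁻¹ * g = g * x := by group
  rw [h3, QuotientGroup.eq] at h1
  have e : (g * x)⁻¹ * g = x⁻¹ := by group
  rw [e] at h1
  simpa using T.inv_mem h1

variable {X : Type v} [MulAction G X] [Finite X]

/-- **Two subsets.** -/
theorem exists_two_sets (hgen : Subgroup.closure {g : G | ∃ k : ℕ, orderOf g = p ^ k} = ⊤)
    (hnt : ∃ (g : G) (a : X), g • a ≠ a) :
    ∃ Δ₁ Δ₂ : Set X, Δ₁.Nonempty ∧ Δ₂.Nonempty ∧ Disjoint Δ₁ Δ₂ ∧
      p ∣ (MulAction.stabilizer G Δ₁ ⊓ MulAction.stabilizer G Δ₂).index := by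
  obtain ⟨g, a, hga⟩ := hnt
  have hgen' := gen_of_orderOf p hgen
  obtain ⟨x, hx, hxa⟩ : ∃ x : G, IsPEl p x ∧ x • a ≠ a := by
    by_contra hcon
    push Not at hcon
    have h1 : g ∈ Subgroup.closure {g : G | IsPEl p g} := by rw [hgen']; exact Subgroup.mem_top _
    have h2 : Subgroup.closure {g : G | IsPEl p g} ≤ MulAction.stabilizer G a := by
      rw [Subgroup.closure_le]
      intro y hy
      exact MulAction.mem_stabilizer_iff.2 (hcon y hy)
    exact hga (MulAction.mem_stabilizer_iff.1 (h2 h1))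
  obtain ⟨Y, haY, hcard, _, hnon⟩ := exists_nonfix p hx hxa
  have hp2 : 2 ≤ p := hp.out.two_le
  -- the second set
  obtain ⟨D, hDne, hDa, hDcard, hDY⟩ : ∃ D : Finset X, D.Nonempty ∧ a ∉ D ∧ D.card < p ∧
      ∀ y ∈ Y, y = a ∨ y ∈ D := by
    by_cases hne : (Y.erase a).Nonempty
    · refine ⟨Y.erase a, hne, Finset.notMem_erase _ _, ?_, ?_⟩
      · rw [Finset.card_erase_of_mem haY]
        have : 0 < Y.card := Finset.card_pos.2 ⟨a, haY⟩
        omega
      · intro y hy
        by_cases hya : y = a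
        · exact Or.inl hya
        · exact Or.inr (Finset.mem_erase.2 ⟨hya, hy⟩)
    · refine ⟨{x • a}, Finset.singleton_nonempty _, ?_, ?_, ?_⟩
      · rw [Finset.mem_singleton]
        exact fun h => hxa h.symm
      · rw [Finset.card_singleton]
        omega
      · intro y hy
        left
        by_contra hya
        exact hne ⟨y, Finset.mem_erase.2 ⟨hya, hy⟩⟩
  refine ⟨{a}, (D : Set X), Set.singleton_nonempty _, hDne, ?_, ?_⟩
  · rw [Set.disjoint_singleton_left]
    exact fun h => hDa (Finset.mem_coe.1 h)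
  · by_contra hnd
    obtain ⟨R, hR⟩ := exists_sylow_le p _ hnd
    obtain ⟨y, hy, r, hr, hne⟩ := hnon R
    apply hne
    have hr1 := (hR hr).1
    have hr2 := (hR hr).2
    rcases hDY y hy with rfl | hyD
    · have h1 : r • ({y} : Set X) = {y} := MulAction.mem_stabilizer_iff.1 hr1
      rw [Set.smul_set_singleton, Set.singleton_eq_singleton_iff] at h1
      exact h1
    · by_contra hfix
      have hmoved : ¬ ∀ r' ∈ (R : Subgroup G), r' • y = y := fun h => hfix (h r hr)
      have h3 := p_le_card_orbit p R.isPGroup' y hmoved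
      have h4 : Nat.card (MulAction.orbit (R : Subgroup G) y) ≤ D.card := by
        rw [Nat.card_coe_set_eq, ← Set.ncard_coe_finset]
        apply Set.ncard_le_ncard _ (Finset.finite_toSet _)
        rintro z ⟨r', rfl⟩
        have h5 : ((r' : G)) • (D : Set X) = D :=
          MulAction.mem_stabilizer_iff.1 (hR r'.2).2
        rw [← h5]
        exact Set.smul_mem_smul_set (Finset.mem_coe.2 hyD)
      omega

end

end Cfsg.Agent.SylFix
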